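import Mathlib

/-! Quasiprimitive groups and Jordan sets. -/

set_option autoImplicit false

open scoped Pointwise
open MulAction

namespace Cfsg.Agent.H60

section
variable {G Ω : Type*} [Group G] [MulAction G Ω]

/-- The kernel of the action on the translates of a set. -/
def blockKernel (G : Type*) {Ω : Type*} [Group G] [MulAction G Ω] (B : Set Ω) : Subgroup G :=
  ⨅ g : G, stabilizer G (g • B)

theorem mem_blockKernel {B : Set Ω} {h : G} :
    h ∈ blockKernel G B ↔ ∀ g : G, h • g • B = g • B := by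
  simp [blockKernel, Subgroup.mem_iInf, mem_stabilizer_iff]

theorem blockKernel_normal (B : Set Ω) : (blockKernel G B).Normal := by
  constructor
  intro n hn g
  rw [mem_blockKernel] at hn ⊢
  intro x
  have := hn (g⁻¹ * x)
  rw [mul_smul, mul_smul, smul_smul g⁻¹ x, this, smul_smul, mul_inv_cancel_left]

/-- In a quasiprimitive group, a non-trivial subgroup moves some translate of a proper block. -/
theorem exists_move_of_quasi
    (hqp : ∀ N : Subgroup G, N.Normal → N ≠ ⊥ → MulAction.IsPretransitive ↥N Ω)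
    {B : Set Ω} (hBne : B.Nonempty) (hBu : B ≠ Set.univ) {H : Subgroup G} (hH : H ≠ ⊥) :
    ∃ h ∈ H, ∃ g : G, h • g • B ≠ g • B := by
  by_contra hcon
  push Not at hcon
  have hle : H ≤ blockKernel G B := by
    intro h hh
    rw [mem_blockKernel]
    exact hcon h hh
  have hne : blockKernel G B ≠ ⊥ := by
    intro h
    apply hH
    rw [h] at hle
    exact le_bot_iff.mp hle
  have htr := hqp _ (blockKernel_normal B) hne
  apply hBu
  obtain ⟨b, hb⟩ := hBne
  ext x
  simp only [Set.mem_univ, iff_true]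
  obtain ⟨k, hk⟩ := htr.exists_smul_eq b x
  have h1 := (mem_blockKernel.mp k.2) 1
  simp only [one_smul] at h1
  rw [← h1, ← hk]
  exact Set.smul_mem_smul_set hb

theorem fixingSubgroup_ne_bot_of_trans {Γ : Set Ω} (hΓ1 : Γ.Nontrivial)
    (hJ : MulAction.IsPretransitive ↥(fixingSubgroup G Γᶜ) ↥(SubMulAction.ofFixingSubgroup G Γᶜ)) :
    fixingSubgroup G Γᶜ ≠ ⊥ := by
  obtain ⟨x, hx, y, hy, hxy⟩ := hΓ1
  intro hbot
  have hx' : x ∈ SubMulAction.ofFixingSubgroup G Γᶜ := by
    rw [SubMulAction.mem_ofFixingSubgroup_iff]; simpa using hx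
  have hy' : y ∈ SubMulAction.ofFixingSubgroup G Γᶜ := by
    rw [SubMulAction.mem_ofFixingSubgroup_iff]; simpa using hy
  obtain ⟨k, hk⟩ := hJ.exists_smul_eq ⟨x, hx'⟩ ⟨y, hy'⟩
  have hk1 : k = 1 := by
    apply Subtype.ext
    have h1 : ∀ z : G, z ∈ fixingSubgroup G Γᶜ → z = 1 := by
      intro z hz
      rw [hbot, Subgroup.mem_bot] at hz
      exact hz
    exact h1 k k.2
  rw [hk1, one_smul] at hk
  exact hxy (congrArg Subtype.val hk)

theorem smul_mem_of_fixing {Γ : Set Ω} {h : G} (hh : h ∈ fixingSubgroup G Γᶜ) {x : Ω}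
    (hx : h • x ≠ x) : x ∈ Γ := by
  by_contra hxΓ
  exact hx ((mem_fixingSubgroup_iff G).mp hh x hxΓ)

theorem smul_Γ {Γ : Set Ω} {h : G} (hh : h ∈ fixingSubgroup G Γᶜ) {x : Ω} (hx : x ∈ Γ) :
    h • x ∈ Γ := by
  by_contra hxΓ
  have h1 : h⁻¹ • (h • x) = h • x :=
    (mem_fixingSubgroup_iff G).mp ((fixingSubgroup G Γᶜ).inv_mem hh) _ hxΓ
  rw [inv_smul_smul] at h1
  rw [← h1] at hxΓ
  exact hxΓ hx

/-- A quasiprimitive group with a Jordan set on which the pointwise stabilizer of the complement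
is primitive is primitive. -/
theorem preprimitive_of_quasi_of_jordan_primitive
    (hqp : ∀ N : Subgroup G, N.Normal → N ≠ ⊥ → MulAction.IsPretransitive ↥N Ω)
    (Γ : Set Ω) (hΓ1 : Γ.Nontrivial)
    (hJp : MulAction.IsPreprimitive ↥(fixingSubgroup G Γᶜ)
      ↥(SubMulAction.ofFixingSubgroup G Γᶜ)) :
    MulAction.IsPreprimitive G Ω := by
  have hHne := fixingSubgroup_ne_bot_of_trans hΓ1 hJp.toIsPretransitive
  have hGtop : (⊤ : Subgroup G) ≠ ⊥ := by
    intro h
    apply hHne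
    rw [← le_bot_iff, ← h]
    exact le_top
  have htop := hqp ⊤ inferInstance hGtop
  have htrans : MulAction.IsPretransitive G Ω := by
    constructor
    intro x y
    obtain ⟨g, hg⟩ := htop.exists_smul_eq x y
    exact ⟨(g : G), hg⟩
  refine { toIsPretransitive := htrans, isTrivialBlock_of_isBlock := ?_ }
  intro B hB
  by_contra hnt
  rw [IsTrivialBlock, not_or, Set.not_subsingleton_iff] at hnt
  obtain ⟨hBnt, hBu⟩ := hnt
  obtain ⟨h, hh, g, hg⟩ := exists_move_of_quasi hqp hBnt.nonempty hBu hHne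
  have hB' : IsBlock G (g • B) := hB.translate g
  have hB'nt : (g • B).Nontrivial := by
    obtain ⟨a, ha, b, hb, hab⟩ := hBnt
    exact ⟨g • a, Set.smul_mem_smul_set ha, g • b, Set.smul_mem_smul_set hb,
      fun e => hab (smul_left_cancel g e)⟩
  set B' := g • B with hB'def
  have hdisj : Disjoint (h • B') B' := by
    have := @hB' h 1
    rw [one_smul] at this
    exact this hg
  -- every point of B' is moved by h
  have hmem : ∀ x ∈ B', x ∈ Γ ∧ h • x ∉ B' := by
    intro x hx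
    have h1 : h • x ∈ h • B' := Set.smul_mem_smul_set hx
    have h2 : h • x ∉ B' := fun h2 => (Set.disjoint_left.mp hdisj) h1 h2
    refine ⟨smul_mem_of_fixing hh ?_, h2⟩
    intro e
    rw [e] at h2
    exact h2 hx
  -- the trace of B' on Γ is a block
  let S : Set ↥(SubMulAction.ofFixingSubgroup G Γᶜ) := {x | (x : Ω) ∈ B'}
  have hS : IsBlock ↥(fixingSubgroup G Γᶜ) S := by
    rw [isBlock_iff_smul_eq_or_disjoint]
    intro k
    rcases (isBlock_iff_smul_eq_or_disjoint.mp hB') (k : G) with e | d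
    · left
      ext x
      rw [Set.mem_smul_set_iff_inv_smul_mem]
      change ((k⁻¹ • x : ↥(SubMulAction.ofFixingSubgroup G Γᶜ)) : Ω) ∈ B' ↔ (x : Ω) ∈ B'
      have e2 : ((k⁻¹ • x : ↥(SubMulAction.ofFixingSubgroup G Γᶜ)) : Ω) = (k : G)⁻¹ • (x : Ω) := rfl
      rw [e2, ← Set.mem_smul_set_iff_inv_smul_mem, e]
    · right
      rw [Set.disjoint_left] at d ⊢
      intro x hx hxS
      rw [Set.mem_smul_set_iff_inv_smul_mem] at hx
      have e2 : ((k⁻¹ • x : ↥(SubMulAction.ofFixingSubgroup G Γᶜ)) : Ω) = (k : G)⁻¹ • (x : Ω) := rfl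
      have hx' : (k : G)⁻¹ • (x : Ω) ∈ B' := by rw [← e2]; exact hx
      rw [← Set.mem_smul_set_iff_inv_smul_mem] at hx'
      exact d hx' hxS
  obtain ⟨a, ha, b, hb, hab⟩ := hB'nt
  have haΓ := hmem a ha
  have hbΓ := hmem b hb
  have ha' : a ∈ SubMulAction.ofFixingSubgroup G Γᶜ := by
    rw [SubMulAction.mem_ofFixingSubgroup_iff]; simpa using haΓ.1
  have hb' : b ∈ SubMulAction.ofFixingSubgroup G Γᶜ := by
    rw [SubMulAction.mem_ofFixingSubgroup_iff]; simpa using hbΓ.1
  have hha' : h • a ∈ SubMulAction.ofFixingSubgroup G Γᶜ := by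
    rw [SubMulAction.mem_ofFixingSubgroup_iff]; simpa using smul_Γ hh haΓ.1
  rcases hJp.isTrivialBlock_of_isBlock hS with hs | hs
  · have := hs (show (⟨a, ha'⟩ : ↥(SubMulAction.ofFixingSubgroup G Γᶜ)) ∈ S from ha)
      (show (⟨b, hb'⟩ : ↥(SubMulAction.ofFixingSubgroup G Γᶜ)) ∈ S from hb)
    exact hab (congrArg Subtype.val this)
  · have : (⟨h • a, hha'⟩ : ↥(SubMulAction.ofFixingSubgroup G Γᶜ)) ∈ S := by
      rw [hs]; exact Set.mem_univ _
    exact haΓ.2 this

end

end Cfsg.Agent.H60
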